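import Cfsg.Agent.H363.IFO.Cnt
import Cfsg.Agent.KFacts.RgdChevCoord
import Cfsg.Agent.KFacts.RgdFiltChev
import Cfsg.Agent.KFacts.SylFix
import Cfsg.Agent.KFacts.RgdSyl
import Cfsg.Agent.S1063

/-!
# S5719: `E₆(q)`, `q` even, `|A|` odd (helper363)

`e6_even_O` : `KillO (chevE6.group F)`, `q` even; all outer involutions at once: graph and graph-field involutions
move ten pairs of positive roots of height at least two, field involutions act semilinearly on all root groups.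
-/

set_option autoImplicit false
set_option linter.unusedSectionVars false

namespace Cfsg.Agent.H363.IFO

open Subgroup CoxeterSystem Cfsg.Agent.ChevalleyStructure.CoxeterGeom Cfsg.Agent.Tits.Core
  Cfsg.Agent.Nodes.Reps Cfsg.Agent.Nodes.BNOf Cfsg.Agent.Nodes.Bruhat Cfsg.Agent.Nodes.NormalForm Cfsg.Agent.Nodes
  Cfsg.Agent.KFacts.RgdFilt Cfsg.Agent.KFacts.RgdBorelTits Cfsg.Agent.OddHalf.D4.StarLoc
  Cfsg.Agent.KFacts.RgdAut Cfsg.Agent.KFacts.RgdDiag Cfsg.Agent.KFacts.RgdField Cfsg.Agent.KFacts.RgdTau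
open Cfsg.Agent.Tits.Roots hiding ht
open Cfsg.Agent.OddHalf.D4.LineRgd (ht ht_pos ht_apply)
open scoped commutatorElement

universe v

variable {I W : Type*} {Y : Type v} [Fintype I] [DecidableEq I] [Group W] [Group Y] {M : CoxeterMatrix I}
  {cs : CoxeterSystem M W} {A : I → I → ℤ} {h : IsCartan M A} {p : ℕ} {T : Subgroup Y} {n : I → Y}
  {X : (I → ℤ) → Subgroup Y}

/-- **The fixed points in `U`**, general form. -/
theorem Dat.fix_card' {β : Y →* Y} {u : Y} {π : (I → ℤ) → I → ℤ} (D : Dat cs h X β u π) [Finite W] [Finite Y]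
    (R : RGD cs h p T n X) {q : ℕ} {Q : Set (I → ℤ)}
    (hQ : ∀ x ∈ RGD.Pos cs h, x ∈ Q → (x ≠ π x ∧ π x ∉ Q ∧ q ≤ Nat.card (X x)) ∨
      (x = π x ∧ q ≤ Nat.card {y : Y // ∃ a ∈ X x, y = a * β a}))
    {c N : ℕ} (hc : c ≤ (Gt cs h 1 ∩ Q).ncard) (hq : 0 < q)
    (hN : N * Nat.card (RGD.Sup X (Gt cs h 1)) ≤ Nat.card (RGD.Sup X (RGD.Pos cs h))) :
    N * (q * q) ^ c ≤ FF (tt β u) (RGD.Sup X (RGD.Pos cs h)) ⊥ * FF (tt β u) (RGD.Sup X (RGD.Pos cs h)) ⊥ := by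
  have h1 := D.chain R hQ _ (Gt cs h 1) (up_gt 1)
    (fun x hx => ⟨D.pos x hx.1, by rw [D.hh x hx.1]; exact hx.2⟩) le_rfl
  have h2 := D.base_q
  set F1 := FF (tt β u) (RGD.Sup X (RGD.Pos cs h)) (RGD.Sup X (Gt cs h 1)) with hF1
  set F0 := FF (tt β u) (RGD.Sup X (RGD.Pos cs h)) ⊥ with hF0
  set V := Nat.card (RGD.Sup X (Gt cs h 1)) with hV
  have hpos : 0 < V := Nat.card_pos
  have h3 : F1 * q ^ c ≤ F0 * V := le_trans (Nat.mul_le_mul_left _ (Nat.pow_le_pow_right hq hc)) h1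
  refine Nat.le_of_mul_le_mul_right ?_ (Nat.mul_pos hpos hpos)
  calc N * (q * q) ^ c * (V * V) = (N * V * V) * (q * q) ^ c := by ring
    _ ≤ (Nat.card (RGD.Sup X (RGD.Pos cs h)) * V) * (q * q) ^ c :=
        Nat.mul_le_mul_right _ (Nat.mul_le_mul_right _ hN)
    _ ≤ (F1 * F1) * (q * q) ^ c := Nat.mul_le_mul_right _ h2
    _ = (F1 * q ^ c) * (F1 * q ^ c) := by rw [mul_pow]; ring
    _ ≤ (F0 * V) * (F0 * V) := Nat.mul_le_mul h3 h3
    _ = _ := by ring

/-- **The image of `1 + β`** on a group with a coordinate on which `β` acts semilinearly. -/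
theorem card_semi' [Finite Y] {F : Type*} [Field F] [Finite F] (h2 : (2 : F) = 0) {β : Y →* Y} {P : Subgroup Y}
    {y : F → Y} (hy : ∀ a, y a ∈ P) (hadd : ∀ a b, y (a + b) = y a * y b) (hinj : Function.Injective y)
    {τ : F ≃+* F} (hτ : τ ≠ 1) {d : F} (hβ : ∀ a, β (y a) = y (d * τ a)) :
    Nat.card F ≤ Nat.card {z : Y // ∃ a ∈ P, z = a * β a} * Nat.card {z : Y // ∃ a ∈ P, z = a * β a} := by
  have hτ' : ∃ a, (τ : F →+* F) a ≠ a := by
    by_contra hcon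
    push Not at hcon
    exact hτ (RingEquiv.ext hcon)
  have h6 := card_range hτ' d
  have h7 : Nat.card {b : F // ∃ a, b = a - d * (τ : F →+* F) a} ≤ Nat.card {z : Y // ∃ a ∈ P, z = a * β a} := by
    refine Nat.card_le_card_of_injective (fun b => ⟨y b.1, ?_⟩) ?_
    · obtain ⟨a, ha⟩ := b.2
      refine ⟨_, hy a, ?_⟩
      have e : b.1 = a + d * τ a := by
        rw [ha]
        have h8 : ((τ : F →+* F) a) = τ a := rfl
        rw [h8]
        linear_combination (-(d * τ a)) * h2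
      rw [hβ, e, hadd]
    · intro b b' hb
      have h8 : y b.1 = y b'.1 := congrArg Subtype.val hb
      exact Subtype.ext (hinj h8)
  exact h6.trans (Nat.mul_le_mul h7 h7)

section Out

variable {F : Type*} [Field F] {x : (I → ℤ) → F → Y} {χ : (I → ℤ) → Y → F} {hh : I → F → Y}

/-- **An outer involution of a group of Lie type in characteristic two.** -/
theorem exists_tau2 [Finite W] [Finite Y] [Nonempty I] [CharP F 2] (R : RGD cs h 2 T n X)
    (hG1 : RGD.Sup X {x | IsRoot cs h x} = ⊤)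
    (C : Coords cs h T n X x χ) (H : Coroots A T X χ hh)
    (hconn : ∀ J : Set I, J.Nonempty → J ≠ Set.univ → ∃ a ∈ J, ∃ b, b ∉ J ∧ M a b ≠ 2)
    (hA : ∀ σ : Equiv.Perm I, (∀ i j, M (σ i) (σ j) = M i j) → ∀ i j, A (σ i) (σ j) = A i j)
    {s : MulAut Y} (hs : s * s = 1) (hne : ∀ a, s ≠ MulAut.conj a) :
    ∃ (g u : Y) (β : MulAut Y) (ρ : Equiv.Perm I) (τ : F ≃+* F), u ∈ RGD.Sup X (RGD.Pos cs h) ∧
      Tau T X χ A β ρ τ ∧ (∀ y, u * β y * u⁻¹ = g⁻¹ * s (g * y * g⁻¹) * g) ∧ ρ * ρ = 1 ∧ (ρ ≠ 1 ∨ τ ≠ 1) := by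
  have : Fact (Nat.Prime 2) := ⟨Nat.prime_two⟩
  have hi : ¬ 2 ∣ (RGD.Sup X (RGD.Pos cs h)).index := by
    have h1 := Cfsg.Agent.KFacts.RgdSyl.not_dvd_relIndex R
    rwa [GG_eq_top (T := T) hG1, Subgroup.relIndex_top_right] at h1
  have hp2 : ∀ s : MulAut Y, s * s = 1 → IsPGroup 2 (Subgroup.zpowers s) := by
    intro s hs
    refine IsPGroup.iff_card.2 ?_
    rw [Nat.card_zpowers]
    exact (Nat.dvd_prime_pow Nat.prime_two (m := 1)).1 (orderOf_dvd_of_pow_eq_one (by rw [pow_one, pow_two, hs])) |>.imp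
      fun k hk => hk.2
  obtain ⟨g, hg⟩ := Cfsg.Agent.KFacts.SylFix.exists_conj_fix (p := 2) R.isPGroup_Upos hi (hp2 s hs)
  obtain ⟨s', hs'⟩ : ∃ s', s' = MulAut.conj g⁻¹ * s * MulAut.conj g := ⟨_, rfl⟩
  have hss : s' * s' = 1 := by
    rw [hs', map_inv]
    calc (MulAut.conj g)⁻¹ * s * MulAut.conj g * ((MulAut.conj g)⁻¹ * s * MulAut.conj g)
        = (MulAut.conj g)⁻¹ * (s * s) * MulAut.conj g := by group
      _ = 1 := by rw [hs]; group
  obtain ⟨f, hf⟩ := exists_outer R hG1 C H hconn hA (hp2 s' hss) (by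
    intro α hα
    obtain ⟨k, rfl⟩ := Subgroup.mem_zpowers_iff.1 hα
    have h1 : Fix s' (RGD.Sup X (RGD.Pos cs h)) := by rw [hs']; exact hg s (Subgroup.mem_zpowers s)
    rcases Int.even_or_odd' k with ⟨m, rfl | rfl⟩
    · rw [zpow_mul, zpow_two, hss, one_zpow]
      exact fun y => Iff.rfl
    · rw [zpow_add, zpow_mul, zpow_two, hss, one_zpow, one_mul, zpow_one]
      exact h1)
  obtain ⟨⟨u, hu, hT⟩, hinn⟩ := hf ⟨s', Subgroup.mem_zpowers s'⟩
  have hff : f ⟨s', Subgroup.mem_zpowers s'⟩ * f ⟨s', Subgroup.mem_zpowers s'⟩ = 1 := by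
    rw [← map_mul, ← map_one f]
    congr 1
    exact Subtype.ext hss
  refine ⟨g, u⁻¹, _, _, _, inv_mem hu, hT, ?_, congrArg Prod.fst hff, ?_⟩
  · intro y
    simp only [hs', MulAut.mul_apply, MulAut.conj_apply]
    group
  · by_contra hcon
    push Not at hcon
    obtain ⟨v, -, hv⟩ := hinn.1 (Prod.ext hcon.1 hcon.2)
    apply hne (g * v * g⁻¹)
    have hv' : s' = MulAut.conj v := hv
    rw [map_mul, map_mul, ← hv', hs', map_inv]
    group

end Out

end Cfsg.Agent.H363.IFO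

namespace Cfsg.Agent.H363.IFO.ESix

open CoxeterSystem Cfsg.Agent.ChevalleyStructure.CoxeterGeom Cfsg.Agent.Tits.Core
  Cfsg.Agent.Nodes.Reps Cfsg.Agent.Nodes.BNOf Cfsg.Agent.Nodes Cfsg.Agent.Nodes.RGDChev
  Cfsg.Agent.ChevalleyStructure.CoxeterGeomTypes
  Cfsg.Agent.KFacts.RgdFilt Cfsg.Agent.KFacts.RgdBorelTits
  Cfsg.Agent.KFacts.RgdAut Cfsg.Agent.KFacts.RgdDiag Cfsg.Agent.KFacts.RgdField Cfsg.Agent.KFacts.RgdTau
  Cfsg.Agent.KFacts.RgdChevCoord Cfsg.Agent.H209.Fxy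
open Cfsg.Agent.Tits.Roots hiding ht
open Cfsg.Lie Cfsg.Agent.ChevalleyStructure Cfsg.Agent.ChevalleyStructure.Elts
open Cfsg.Agent.OddHalf.D4 (StarLoc.Gt)
open scoped commutatorElement

theorem hp : IsType chevE6 6 CoxeterMatrix.E₆ := by simp [IsType, typeList]

/-- the graph automorphism -/
def rho : Equiv.Perm (Fin 6) := Equiv.swap 0 5 * Equiv.swap 2 4

set_option backward.isDefEq.respectTransparency false in
set_option maxRecDepth 10000 in
theorem perm_E6 : ∀ σ : Equiv.Perm (Fin 6), (∀ i j, CoxeterMatrix.E₆ (σ i) (σ j) = CoxeterMatrix.E₆ i j) →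
    σ = 1 ∨ σ = rho := by decide +kernel

theorem lab_E6 : ∀ i j : Fin 6, i ≠ j → CoxeterMatrix.E₆ i j = 2 ∨ CoxeterMatrix.E₆ i j = 3 := by
  intro i j; revert j; fin_cases i <;> decide

set_option backward.isDefEq.respectTransparency false in
theorem conn_fin : ∀ J : Finset (Fin 6), J = ∅ ∨ J = Finset.univ ∨ ∃ a b : Fin 6, a ∈ J ∧ b ∉ J ∧
    CoxeterMatrix.E₆ a b ≠ 2 := by decide +kernel

theorem conn (J : Set (Fin 6)) (h1 : J.Nonempty) (h2 : J ≠ Set.univ) : ∃ a ∈ J, ∃ b, b ∉ J ∧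
    CoxeterMatrix.E₆ a b ≠ 2 := by
  classical
  rcases conn_fin J.toFinset with h3 | h3 | ⟨a, b, ha, hb, h3⟩
  · rw [Set.toFinset_eq_empty] at h3
    exact absurd h3 h1.ne_empty
  · exact absurd (by rw [← Set.coe_toFinset J, h3, Finset.coe_univ]) h2
  · exact ⟨a, Set.mem_toFinset.1 ha, b, fun hb' => hb (Set.mem_toFinset.2 hb'), h3⟩

/-- the words of representatives of the pairs of roots of height at least two -/
def wg : List (List (Fin 6)) :=
  [[2], [2, 1], [0, 2], [0, 2, 1], [3, 0, 2], [4, 0, 2], [4, 0, 2, 1], [3, 4, 0, 2, 1], [2, 3, 4, 0, 2, 1],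
    [5, 2, 3, 4, 0, 2, 1]]

/-- the words of twenty roots of height at least two -/
def wf : List (List (Fin 6)) :=
  [[1], [2], [4], [2, 1], [4, 1], [0, 2], [4, 2], [5, 4], [0, 2, 1], [4, 2, 1], [5, 4, 1], [3, 0, 2], [4, 0, 2],
    [5, 4, 2], [5, 3, 4], [4, 0, 2, 1], [3, 4, 2, 1], [5, 4, 2, 1], [5, 4, 0, 2], [3, 4, 0, 2, 1]]

/-- the roots -/
def Qg : Finset (Fin 6 → ℤ) := (wg.map (ev (cartanOf chevE6 6) 3)).toFinset
/-- the roots -/
def Qf : Finset (Fin 6 → ℤ) := (wf.map (ev (cartanOf chevE6 6) 3)).toFinset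

set_option backward.isDefEq.respectTransparency false in
theorem Qg_card : Qg.card = 10 := by decide +kernel

set_option backward.isDefEq.respectTransparency false in
theorem Qf_card : Qf.card = 20 := by decide +kernel

set_option backward.isDefEq.respectTransparency false in
theorem Qg_pos : ∀ ω ∈ wg, (∀ i, 0 ≤ ev (cartanOf chevE6 6) 3 ω i) ∧ 1 < ∑ i, ev (cartanOf chevE6 6) 3 ω i := by
  decide +kernel

set_option backward.isDefEq.respectTransparency false in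
theorem Qf_pos : ∀ ω ∈ wf, (∀ i, 0 ≤ ev (cartanOf chevE6 6) 3 ω i) ∧ 1 < ∑ i, ev (cartanOf chevE6 6) 3 ω i := by
  decide +kernel

set_option backward.isDefEq.respectTransparency false in
theorem Qg_ne : ∀ x ∈ Qg, x ≠ x ∘ rho.symm ∧ x ∘ rho.symm ∉ Qg := by decide +kernel

section

variable {F : Type*} [Field F] [Finite F] {W : Type*} [Group W] (cs : CoxeterSystem CoxeterMatrix.E₆ W)

theorem intComm : IntComm cs hp.isCartan (XX chevE6 6 F) := by
  intro x y hx hy hxy hxy' a ha b hb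
  have h1 := Cfsg.Agent.KFacts.RgdFiltChev.intComm_GL (K := F) hp cs x y hx hy hxy hxy' a ha b hb
  have h3 : FS (fun z => (XV chevE6 6 F z).subgroupOf (chevE6.group F)) {z | IB cs hp.isCartan x y z} =
      (FS (XV chevE6 6 F) {z | IB cs hp.isCartan x y z}).subgroupOf (chevE6.group F) := by
    unfold FS
    rw [Nodes.RGDLib.iSup_subgroupOf]
    rintro ⟨z, hz⟩
    exact XV_le_group hp _
  rw [h3, Subgroup.mem_subgroupOf]
  exact h1

theorem coord_card {Y K : Type*} [Group Y] [Field K] {T P : Subgroup Y} {x : K → Y} {χ : Y → K}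
    (C : Coord T P x χ) : Nat.card ↥P = Nat.card K := by
  refine (Nat.card_congr (Equiv.ofBijective (fun a => (⟨x a, (C.mem _).2 ⟨a, rfl⟩⟩ : ↥P)) ⟨?_, ?_⟩)).symm
  · intro a b h
    exact C.inj (congrArg Subtype.val h)
  · rintro ⟨y, hy⟩
    obtain ⟨a, rfl⟩ := (C.mem y).1 hy
    exact ⟨a, rfl⟩

/-- explicit roots lie above height one -/
theorem Gt_of {w : List (List (Fin 6))} (hw : ∀ ω ∈ w, (∀ i, 0 ≤ ev (cartanOf chevE6 6) 3 ω i) ∧
    1 < ∑ i, ev (cartanOf chevE6 6) 3 ω i) :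
    (StarLoc.Gt cs hp.isCartan 1 ∩ ((w.map (ev (cartanOf chevE6 6) 3)).toFinset : Set (Fin 6 → ℤ))) =
      ((w.map (ev (cartanOf chevE6 6) 3)).toFinset : Set (Fin 6 → ℤ)) := by
  rw [Set.inter_eq_right]
  intro x hx
  rw [Finset.mem_coe, List.mem_toFinset, List.mem_map] at hx
  obtain ⟨ω, hω, rfl⟩ := hx
  obtain ⟨h4, h5⟩ := hw ω hω
  exact ⟨⟨⟨_, _, (rep_ev cs hp.isCartan 3 ω).symm⟩, h4⟩, h5⟩

/-- **The fixed points of an outer involution.** -/
theorem fix_E6 [Finite W] [CharP F 2] {s : MulAut ↥(chevE6.group F)} (hs : s * s = 1)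
    (hne : ∀ a, s ≠ MulAut.conj a) :
    ∃ (g u : ↥(chevE6.group F)) (β : MulAut ↥(chevE6.group F)),
      (∀ y, tt β.toMonoidHom u y = g⁻¹ * s (g * y * g⁻¹) * g) ∧
      Nat.card F ^ 13 ≤ FF (tt β.toMonoidHom u) (RGD.Sup (XX chevE6 6 F) (RGD.Pos cs hp.isCartan)) ⊥ := by
  have : Fact (Nat.Prime 2) := ⟨Nat.prime_two⟩
  have hfin : Finite (Matrix.GeneralLinearGroup chevE6.Idx F) :=
    inferInstanceAs (Finite (Matrix chevE6.Idx chevE6.Idx F)ˣ)
  have R := rgd (K := F) hp cs 2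
  have hG1 : RGD.Sup (XX chevE6 6 F) {x | IsRoot cs hp.isCartan x} = ⊤ := G1_eq_top hp cs
  have C := coords (K := F) hp cs 2
  have H := coroots (K := F) hp cs 2
  have hI := intComm (F := F) cs
  have h2 : (2 : F) = 0 := by exact_mod_cast CharP.cast_eq_zero F 2
  obtain ⟨g, u, β, ρ, τ, hu, hT, hβ, hρ, hor⟩ := exists_tau2 R hG1 C H conn
    (fun σ hσ => cartan_of_laced hp.isCartan lab_E6 hσ) hs hne
  refine ⟨g, u, β, hβ, ?_⟩
  have hss : ∀ y, s (s y) = y := fun y => congrArg (fun e : MulAut _ => e y) hs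
  have hab : ∀ x ∈ RGD.Pos cs hp.isCartan, ∀ a ∈ XX chevE6 6 F x, ∀ b ∈ XX chevE6 6 F x, a * b = b * a := by
    intro x hx a ha b hb
    obtain ⟨a, rfl⟩ := ((C.coord x hx.1).mem _).1 ha
    obtain ⟨b, rfl⟩ := ((C.coord x hx.1).mem _).1 hb
    rw [← (C.coord x hx.1).add, ← (C.coord x hx.1).add, add_comm]
  have hsq : ∀ x ∈ RGD.Pos cs hp.isCartan, ∀ a ∈ XX chevE6 6 F x, a * a = 1 := by
    intro x hx a ha
    obtain ⟨a, rfl⟩ := ((C.coord x hx.1).mem _).1 ha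
    have e : a + a = 0 := by linear_combination a * h2
    rw [← (C.coord x hx.1).add, e, (C.coord x hx.1).zero]
  have D := dat_of R hT.diag hT.cartan hρ hI hab hsq hu (by
    intro y
    rw [hβ, hβ]
    have e : g * (g⁻¹ * s (g * y * g⁻¹) * g) * g⁻¹ = s (g * y * g⁻¹) := by group
    rw [e, hss]
    group)
  have hcard : ∀ x, IsRoot cs hp.isCartan x → Nat.card (XX chevE6 6 F x) = Nat.card F := fun x hx =>
    coord_card (C.coord x hx)
  have hN : Nat.card F ^ 6 * Nat.card (RGD.Sup (XX chevE6 6 F) (StarLoc.Gt cs hp.isCartan 1)) ≤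
      Nat.card (RGD.Sup (XX chevE6 6 F) (RGD.Pos cs hp.isCartan)) := by
    have h3 := peel_all R hI
    rw [Finset.prod_congr rfl (fun i _ => hcard _ (isRoot_sr cs hp.isCartan i)), Finset.prod_const,
      Finset.card_univ, Fintype.card_fin] at h3
    exact h3
  have hF0 : 0 < Nat.card F := Nat.card_pos
  apply Nat.mul_self_le_mul_self_iff.1
  rcases perm_E6 ρ (hT.diag.matrix R) with rfl | rfl
  · -- field automorphisms
    have hτ : τ ≠ 1 := hor.resolve_left (fun h => h rfl)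
    obtain ⟨q, hq1, hq2⟩ : ∃ q : ℕ, Nat.card F ≤ q * q ∧ ∀ m : ℕ, Nat.card F ≤ m * m → q ≤ m := by
      classical
      have hex : ∃ m : ℕ, Nat.card F ≤ m * m := ⟨Nat.card F, Nat.le_mul_of_pos_left _ hF0⟩
      exact ⟨Nat.find hex, Nat.find_spec hex, fun m hm => Nat.find_min' hex hm⟩
    have hq0 : 0 < q := by
      rcases Nat.eq_zero_or_pos q with rfl | h
      · simp at hq1; omega
      · exact h
    have h4 := D.fix_card' R (q := q) (Q := (Qf : Set (Fin 6 → ℤ))) (by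
      intro x hx _
      right
      refine ⟨rfl, hq2 _ ?_⟩
      obtain ⟨c, -, hc⟩ := Tau.root R C hT hx.1
      exact card_semi' h2 (fun a => ((C.coord x hx.1).mem _).2 ⟨a, rfl⟩) (C.coord x hx.1).add (C.coord x hx.1).inj
        hτ hc) (c := 20) (by
      unfold Qf
      rw [Gt_of cs Qf_pos, Set.ncard_coe_finset]
      exact Qf_card.ge) hq0 hN
    refine le_trans ?_ h4
    calc Nat.card F ^ 13 * Nat.card F ^ 13 = Nat.card F ^ 6 * Nat.card F ^ 20 := by ring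
      _ ≤ Nat.card F ^ 6 * (q * q) ^ 20 := Nat.mul_le_mul_left _ (Nat.pow_le_pow_left hq1 20)
  · -- graph and graph-field automorphisms
    have h4 := D.fix_card' R (q := Nat.card F) (Q := (Qg : Set (Fin 6 → ℤ))) (by
      intro x hx hxQ
      left
      obtain ⟨h5, h6⟩ := Qg_ne x hxQ
      exact ⟨h5, h6, (hcard x hx.1).ge⟩) (c := 10) (by
      unfold Qg
      rw [Gt_of cs Qg_pos, Set.ncard_coe_finset]
      exact Qg_card.ge) hF0 hN
    refine le_trans (le_of_eq ?_) h4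
    ring

/-- the order of `E₆(q)` -/
theorem card_le [Fintype F] : Nat.card ↥(chevE6.group F) ≤ (Nat.card F ^ 13) ^ 6 := by
  have h1 := Cfsg.Agent.S1063.result (F := F) (q := Nat.card F) Nat.card_eq_fintype_card.symm
  set q := Nat.card F with hq
  have hg : 0 < Nat.gcd 3 (q - 1) := Nat.gcd_pos_of_pos_left _ (by norm_num)
  have h2 : Nat.card ↥(chevE6.group F) ≤ Nat.gcd 3 (q - 1) * Nat.card ↥(chevE6.group F) := Nat.le_mul_of_pos_left _ hg
  rw [h1] at h2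
  refine h2.trans ?_
  calc q ^ 36 * (q ^ 2 - 1) * (q ^ 5 - 1) * (q ^ 6 - 1) * (q ^ 8 - 1) * (q ^ 9 - 1) * (q ^ 12 - 1)
      ≤ q ^ 36 * q ^ 2 * q ^ 5 * q ^ 6 * q ^ 8 * q ^ 9 * q ^ 12 :=
        Nat.mul_le_mul (Nat.mul_le_mul (Nat.mul_le_mul (Nat.mul_le_mul (Nat.mul_le_mul (Nat.mul_le_mul_left _
          (Nat.sub_le _ _)) (Nat.sub_le _ _)) (Nat.sub_le _ _)) (Nat.sub_le _ _)) (Nat.sub_le _ _)) (Nat.sub_le _ _)
    _ = _ := by ring

end

end Cfsg.Agent.H363.IFO.ESix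

namespace Cfsg.Agent.H363.IFO

open Cfsg.Lie Cfsg.Agent.H209.Fxy Cfsg.Agent.Nodes.BNOf Cfsg.Agent.Nodes.RGDChev

/-- **`E₆(q)`, `q` even, `|A|` odd.** -/
theorem e6_even_O {F : Type*} [Field F] [Fintype F] (he : Even (Fintype.card F)) : KillO ↥(chevE6.group F) := by
  have : Fact (Nat.Prime 2) := ⟨Nat.prime_two⟩
  have hch : CharP F 2 := by
    obtain ⟨p, hp⟩ := CharP.exists F
    obtain ⟨m, hpp, hc⟩ := FiniteField.card F p
    have h1 : 2 ∣ p ^ (m : ℕ) := by rw [← hc]; exact he.two_dvd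
    have h2 : 2 = p := (Nat.prime_dvd_prime_iff_eq Nat.prime_two hpp).1 (Nat.prime_two.dvd_of_dvd_pow h1)
    rwa [h2]
  have hWf : Finite CoxeterMatrix.E₆.Group := finite_W ESix.hp CoxeterMatrix.E₆.toCoxeterSystem
  have hfin : Finite (Matrix.GeneralLinearGroup chevE6.Idx F) :=
    inferInstanceAs (Finite (Matrix chevE6.Idx chevE6.Idx F)ˣ)
  intro A Γ hIF hO
  obtain ⟨σ, hσ, h2σ, hne⟩ := H460.IFO.exists_outer hIF hO
  have hσσ : σ * σ = 1 := by rw [← pow_two, ← h2σ]; exact pow_orderOf_eq_one σ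
  obtain ⟨g, u, β, h1, h2⟩ := ESix.fix_E6 CoxeterMatrix.E₆.toCoxeterSystem hσσ hne
  have R := rgd (K := F) ESix.hp CoxeterMatrix.E₆.toCoxeterSystem 2
  exact false_of_fix hIF hO hσ h2σ R.isPGroup_Upos g (t := tt β.toMonoidHom u) h1 h2 ESix.card_le

end Cfsg.Agent.H363.IFO
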