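import Cfsg.Agent.H363.IFO.Cnt
import Cfsg.Agent.KFacts.TwESix.OutTwo
import Cfsg.Agent.S1066

/-!
# S5719: `²E₆(q)`, `q` even, `|A|` odd (helper363)

`te6_even_O` : `KillO (twistedE6 K q)`, `q` even.
-/

set_option autoImplicit false
set_option linter.unusedSectionVars false
set_option maxHeartbeats 1000000

namespace Cfsg.Agent.H363.IFO.TwE

open CoxeterSystem Cfsg.Agent.ChevalleyStructure.CoxeterGeom Cfsg.Agent.Tits.Core
  Cfsg.Agent.Nodes.Reps Cfsg.Agent.Nodes.BNOf Cfsg.Agent.Nodes.Bruhat Cfsg.Agent.Nodes.RGDTwGen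
  Cfsg.Agent.Nodes.RGDChev Cfsg.Agent.Nodes.RGDFold Cfsg.Agent.Nodes.RGDFoldSL
open Cfsg.Agent.Tits.Roots hiding ht
open Cfsg.Agent.KFacts.RgdAut Cfsg.Agent.KFacts.RgdDiag Cfsg.Agent.KFacts.RgdRigid
  Cfsg.Agent.KFacts.RgdField Cfsg.Agent.KFacts.RgdTau Cfsg.Agent.KFacts.RgdNodes
open Cfsg.Lie Cfsg.Agent.ChevalleyStructure
open Cfsg.Agent.ChevalleyStructure.SL2Hom (up lo)
open Cfsg.Agent.KFacts.TwESix.NodeCoord Cfsg.Agent.KFacts.TwESix.Out Cfsg.Agent.KFacts.TwESix.OutTwo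
open Cfsg.Agent.Nodes.RGDTwE6 Cfsg.Agent.Nodes.RGDTwNode.E6
open Cfsg.Agent.Nodes (RGDTwActE6.mem_X RGDTwActE6.x_add RGDTwActE6.x_zero)
open Cfsg.Agent.OddHalf.D4 Cfsg.Agent.H209.Fxy

universe u

variable {K : Type u} [Field K] [Fintype K] {q : ℕ} {φ : K →+* K} (hφ : ∀ x, φ x = x ^ q)
  (hqq : ∀ t : K, (t ^ q) ^ q = t)

/-- the words of the short roots of height at least two -/
def wds : List (List (Fin 4)) :=
  [[1], [3], [0, 1], [3, 1], [3, 0, 1], [2, 3, 1], [2, 3, 0, 1], [1, 2, 3, 0, 1], [2, 1, 2, 3, 0, 1],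
    [3, 2, 1, 2, 3, 0, 1]]

/-- the roots -/
def Q : Finset (Fin 4 → ℤ) := (wds.map (ev A 2)).toFinset

set_option backward.isDefEq.respectTransparency false in
theorem Q_card : Q.card = 10 := by decide +kernel

set_option backward.isDefEq.respectTransparency false in
theorem Q_pos : ∀ ω ∈ wds, (∀ i, 0 ≤ ev A 2 ω i) ∧ 1 < ∑ i, ev A 2 ω i := by decide +kernel

include hφ hqq in
theorem F2_card : Nat.card (KF φ 2) = Nat.card K := by
  have h1 : (KF φ 2 : Subfield K) = ⊤ := F2_eq_top hφ hqq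
  rw [h1]
  exact Nat.card_congr Subfield.topEquiv.toEquiv

include hφ hqq in
theorem F3_card : Nat.card (KF φ 3) = Nat.card K := by
  have h1 : (KF φ 3 : Subfield K) = ⊤ := F2_eq_top hφ hqq
  rw [h1]
  exact Nat.card_congr Subfield.topEquiv.toEquiv

include hφ hqq in
theorem F1_card (h2 : (2 : K) = 0) (hK : Fintype.card K = q ^ 2) (hq1 : 1 < q) : q ≤ Nat.card (KF φ 0) := by
  have h1 : ∃ a, φ a ≠ a := by
    by_contra hne
    push Not at hne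
    apply F1_ne_top hφ hK hq1
    rw [eq_top_iff]
    intro x _
    refine (Cfsg.Agent.Nodes.RGDFoldSL.mem_Fx (φ := φ) (k := 1)).2 ?_
    rw [Function.iterate_one]
    exact hne x
  have h3 := card_range h1 (1 : K)
  have h4 : Nat.card {b : K // ∃ a, b = a - 1 * φ a} ≤ Nat.card (KF φ 0) := by
    refine Nat.card_le_card_of_injective (fun b => (⟨b.1, ?_⟩ : KF φ 0)) ?_
    · obtain ⟨a, ha⟩ := b.2
      refine (Cfsg.Agent.Nodes.RGDFoldSL.mem_Fx (φ := φ) (k := 1)).2 ?_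
      rw [Function.iterate_one, ha, one_mul, map_sub]
      have e : φ (φ a) = a := by rw [hφ, hφ, hqq]
      rw [e]
      linear_combination (φ a - a) * h2
    · intro b b' h
      exact Subtype.ext (congrArg (fun z : KF φ 0 => (z : K)) h)
  have h5 : q * q ≤ Nat.card (KF φ 0) * Nat.card (KF φ 0) := by
    have h6 : Nat.card K = q * q := by rw [Nat.card_eq_fintype_card, hK, pow_two]
    rw [← h6]
    exact h3.trans (Nat.mul_le_mul h4 h4)
  exact Nat.mul_self_le_mul_self_iff.1 h5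

variable {W : Type*} [Group W] (cs : CoxeterSystem CoxeterMatrix.F₄ W)

include hφ hqq in
theorem sq_one (h2 : (2 : K) = 0) {z : Fin 4 → ℤ} (hz : IsRoot cs isCartan z) : ∀ a ∈ X φ q z, a * a = 1 := by
  intro a ha
  obtain ⟨a, ha', rfl⟩ := (RGDTwActE6.mem_X hφ hqq hz a).1 ha
  have h3 := RGDTwActE6.x_add hφ hqq hz ha' ha'
  have e : a + a = 0 := by linear_combination a * h2
  rw [e] at h3
  rw [← h3, RGDTwActE6.x_zero hφ hqq hz]

/-- the number of fixed points -/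
theorem fix_TwE [Finite W] (hK : Fintype.card K = q ^ 2) (hq1 : 1 < q) [CharP K 2] {β : MulAut ↥(twistedE6 K q)}
    {τ : K ≃+* K} (hF : FTau hφ hqq β τ) (hτ : τ ≠ 1) {u : ↥(twistedE6 K q)}
    (hu : u ∈ RGD.Sup (X φ q) (RGD.Pos cs isCartan)) (hinv : ∀ y, u * β (u * β y * u⁻¹) * u⁻¹ = y) :
    q ^ 13 ≤ FF (tt β.toMonoidHom u) (RGD.Sup (X φ q) (RGD.Pos cs isCartan)) ⊥ := by
  have : Fact (Nat.Prime 2) := ⟨Nat.prime_two⟩
  have R := Cfsg.Agent.Nodes.RGDTwE6.rgd cs hφ hqq 2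
  have h2 : (2 : K) = 0 := by exact_mod_cast CharP.cast_eq_zero K 2
  have hI := StarESix.intComm (cs := cs) hφ hqq
  have D := dat_of (u := u) R hF.diag (fun _ _ => rfl) (one_mul 1) hI (fun x hx => StarESix.abel hφ hqq hx.1)
    (fun x hx => sq_one hφ hqq cs h2 hx.1) hu hinv
  have hne : ∃ t ∈ T K q, chE hφ hqq 2 (β t) ≠ chE hφ hqq 2 t := by
    by_contra hcon
    push Not at hcon
    apply hτ
    let E : AddSubgroup (KF φ 2) := AddMonoidHom.eqLocus ((τ : K →+ K).comp ((KF φ 2).subtype : KF φ 2 →+ K))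
      ((KF φ 2).subtype : KF φ 2 →+ K)
    have hE : E = ⊤ := by
      rw [eq_top_iff, ← (coordE hφ hqq 2).span, AddSubgroup.closure_le]
      rintro _ ⟨t, ht, rfl⟩
      have h3 := hF.char 2 t ht
      rw [hcon t ht] at h3
      exact h3.symm
    ext a
    have h1 : a ∈ KF φ 2 := by
      have := F2_eq_top hφ hqq
      show a ∈ Cfsg.Agent.Nodes.RGDFoldSL.Fx φ 2
      rw [this]
      exact Subfield.mem_top a
    have h4 : (⟨a, h1⟩ : KF φ 2) ∈ E := by rw [hE]; exact AddSubgroup.mem_top _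
    exact h4
  have hqK : Nat.card K = q * q := by rw [Nat.card_eq_fintype_card, hK, pow_two]
  refine D.fix_card R (Q := (Q : Set (Fin 4 → ℤ))) ?_ ?_ (by omega) ?_
  · intro x hx hxQ
    right
    refine ⟨rfl, ?_⟩
    unfold Q at hxQ
    rw [Finset.mem_coe, List.mem_toFinset, List.mem_map] at hxQ
    obtain ⟨ω, -, rfl⟩ := hxQ
    rw [← rep_ev cs isCartan 2 ω]
    refine card_semi R (Subtype.ext ?_) hF.diag (coordE hφ hqq 2) hne (cs.wordProd ω) ?_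
    · exact h2
    · rw [F2_card hφ hqq, hqK]
  · have h3 : (StarLoc.Gt cs isCartan 1 ∩ (Q : Set (Fin 4 → ℤ))) = (Q : Set (Fin 4 → ℤ)) := by
      rw [Set.inter_eq_right]
      intro x hx
      unfold Q at hx
      rw [Finset.mem_coe, List.mem_toFinset, List.mem_map] at hx
      obtain ⟨ω, hω, rfl⟩ := hx
      obtain ⟨h4, h5⟩ := Q_pos ω hω
      exact ⟨⟨⟨_, _, (rep_ev cs isCartan 2 ω).symm⟩, h4⟩, h5⟩
    rw [h3, Set.ncard_coe_finset, Q_card]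
  · refine le_trans (Nat.mul_le_mul_right _ ?_) (peel_all R hI)
    rw [Fin.prod_univ_four, card_of_coord (coordE hφ hqq 0), card_of_coord (coordE hφ hqq 1),
      card_of_coord (coordE hφ hqq 2), card_of_coord (coordE hφ hqq 3), F2_card hφ hqq, F3_card hφ hqq, hqK]
    have h3 := F1_card hφ hqq h2 hK hq1
    have h4 : q ≤ Nat.card (KF φ 1) := h3
    calc q ^ 6 = q * q * (q * q) * (q * q) := by ring
      _ ≤ _ := Nat.mul_le_mul_right _ (Nat.mul_le_mul_right _ (Nat.mul_le_mul h3 h4))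

/-- the order of `²E₆(q)` -/
theorem card_le (hq : IsPrimePow q) (hK : Fintype.card K = q ^ 2) : Nat.card ↥(twistedE6 K q) ≤ (q ^ 13) ^ 6 := by
  have h1 := Cfsg.Agent.S1066.result (K := K) hq hK
  have hg : 0 < Nat.gcd 3 (q + 1) := Nat.gcd_pos_of_pos_left _ (by norm_num)
  have h2 : Nat.card ↥(twistedE6 K q) ≤ Nat.gcd 3 (q + 1) * Nat.card ↥(twistedE6 K q) := Nat.le_mul_of_pos_left _ hg
  rw [h1] at h2
  refine h2.trans ?_
  have hq1 : 1 < q := hq.one_lt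
  have a1 : (q ^ 2 - 1) * (q ^ 5 + 1) ≤ q ^ 7 := by
    have h3 : 1 ≤ q ^ 2 := Nat.one_le_pow _ _ (by omega)
    obtain ⟨a, ha⟩ := Nat.exists_eq_add_of_le h3
    have h4 : q ^ 2 - 1 = a := by omega
    have h5 : q ^ 2 ≤ q ^ 5 + 1 := (Nat.pow_le_pow_right (by omega) (by norm_num : 2 ≤ 5)).trans (Nat.le_succ _)
    have h6 : q ^ 7 = q ^ 2 * q ^ 5 := by ring
    rw [h4, h6, ha] at *
    nlinarith
  have a2 : (q ^ 8 - 1) * (q ^ 9 + 1) ≤ q ^ 17 := by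
    have h3 : 1 ≤ q ^ 8 := Nat.one_le_pow _ _ (by omega)
    obtain ⟨a, ha⟩ := Nat.exists_eq_add_of_le h3
    have h4 : q ^ 8 - 1 = a := by omega
    have h5 : q ^ 8 ≤ q ^ 9 + 1 := (Nat.pow_le_pow_right (by omega) (by norm_num : 8 ≤ 9)).trans (Nat.le_succ _)
    have h6 : q ^ 17 = q ^ 8 * q ^ 9 := by ring
    rw [h4, h6, ha] at *
    nlinarith
  have a3 : q ^ 6 - 1 ≤ q ^ 6 := Nat.sub_le _ _
  have a4 : q ^ 12 - 1 ≤ q ^ 12 := Nat.sub_le _ _
  calc q ^ 36 * (q ^ 2 - 1) * (q ^ 5 + 1) * (q ^ 6 - 1) * (q ^ 8 - 1) * (q ^ 9 + 1) * (q ^ 12 - 1)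
      = q ^ 36 * ((q ^ 2 - 1) * (q ^ 5 + 1)) * (q ^ 6 - 1) * ((q ^ 8 - 1) * (q ^ 9 + 1)) * (q ^ 12 - 1) := by ring
    _ ≤ q ^ 36 * q ^ 7 * q ^ 6 * q ^ 17 * q ^ 12 :=
        Nat.mul_le_mul (Nat.mul_le_mul (Nat.mul_le_mul (Nat.mul_le_mul_left _ a1) a3) a2) a4
    _ = _ := by ring

end Cfsg.Agent.H363.IFO.TwE

namespace Cfsg.Agent.H363.IFO

open Cfsg.Agent.ChevalleyStructure Cfsg.Lie Cfsg.Agent.H209.Fxy Cfsg.Agent.Nodes Cfsg.Agent.Nodes.RGDTwE6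
  Cfsg.Agent.KFacts.TwESix.Out Cfsg.Agent.KFacts.TwESix.OutTwo Cfsg.Agent.Nodes.BNOf

/-- **`²E₆(q)`, `q` even, `|A|` odd.** -/
theorem te6_even_O {K : Type*} [Field K] [Fintype K] {q : ℕ} (hq : IsPrimePow q) (hK : Fintype.card K = q ^ 2)
    (he : Even q) : KillO ↥(twistedE6 K q) := by
  have : Fact (Nat.Prime 2) := ⟨Nat.prime_two⟩
  obtain ⟨φ, hφ, hqq⟩ := TwE6Basic.exists_frob hq hK
  have hq1 : 1 < q := hq.one_lt
  have hch : CharP K 2 := by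
    obtain ⟨p, hp⟩ := CharP.exists K
    obtain ⟨m, hpp, hc⟩ := FiniteField.card K p
    have h1 : 2 ∣ p ^ (m : ℕ) := by
      rw [← hc, hK]
      exact he.two_dvd.trans (dvd_pow_self _ (by norm_num))
    have h2 : 2 = p := (Nat.prime_dvd_prime_iff_eq Nat.prime_two hpp).1 (Nat.prime_two.dvd_of_dvd_pow h1)
    rwa [h2]
  have hWf : Finite CoxeterMatrix.F₄.Group := RGDFold.finite_W (hp := RGDTwE6.hp)
    CoxeterMatrix.F₄.toCoxeterSystem RGDTwE6.isCartan RGDTwE6.foldData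
  intro A Γ hIF hO
  obtain ⟨σ, hσ, h2σ, hne⟩ := H460.IFO.exists_outer hIF hO
  have hSp : IsPGroup 2 (Subgroup.zpowers σ) := IsPGroup.of_card (n := 1) (by rw [Nat.card_zpowers, h2σ, pow_one])
  obtain ⟨g, f, -, hf⟩ := exists_outer hφ hqq CoxeterMatrix.F₄.toCoxeterSystem hK hq1 2 hSp
  obtain ⟨⟨u, hu, hF, -⟩, hinn⟩ := hf ⟨σ, Subgroup.mem_zpowers σ⟩
  obtain ⟨β, hβ⟩ : ∃ β, β = MulAut.conj u * (MulAut.conj g⁻¹ * σ * MulAut.conj g) := ⟨_, rfl⟩
  have hF' : FTau hφ hqq β (f ⟨σ, Subgroup.mem_zpowers σ⟩) := by rw [hβ]; exact hF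
  have hβy : ∀ y, u⁻¹ * β y * u⁻¹⁻¹ = g⁻¹ * σ (g * y * g⁻¹) * g := by
    intro y
    rw [hβ]
    simp only [MulAut.mul_apply, MulAut.conj_apply]
    group
  have hσσ : ∀ y, σ (σ y) = y := by
    intro y
    have h1 : σ ^ 2 = 1 := by rw [← h2σ]; exact pow_orderOf_eq_one σ
    rw [pow_two] at h1
    exact congrArg (fun e : MulAut _ => e y) h1
  have hτ : f ⟨σ, Subgroup.mem_zpowers σ⟩ ≠ 1 := by
    intro h1
    obtain ⟨x, hx⟩ := hinn.1 h1
    exact hne x hx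
  have hN := TwE.fix_TwE hφ hqq CoxeterMatrix.F₄.toCoxeterSystem hK hq1 hF' hτ (inv_mem hu) (by
    intro y
    rw [hβy, hβy]
    have e : g * (g⁻¹ * σ (g * y * g⁻¹) * g) * g⁻¹ = σ (g * y * g⁻¹) := by group
    rw [e, hσσ]
    group)
  have R := Cfsg.Agent.Nodes.RGDTwE6.rgd CoxeterMatrix.F₄.toCoxeterSystem hφ hqq 2
  have : Finite (Matrix.GeneralLinearGroup chevE6.Idx K) := inferInstanceAs (Finite (Matrix chevE6.Idx chevE6.Idx K)ˣ)
  exact false_of_fix hIF hO hσ h2σ R.isPGroup_Upos g (t := tt β.toMonoidHom u⁻¹) (fun y => hβy y) hN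
    (TwE.card_le hq hK)


end Cfsg.Agent.H363.IFO
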